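import Groth.Agent.Models.H50.PointInter

/-!
# The intersection number of a vertical component with an effective divisor not containing it (proper case)
-/

set_option autoImplicit false
universe u

open CategoryTheory CategoryTheory.Limits AlgebraicGeometry Opposite TopologicalSpace

namespace Groth.Agent.Models.H50.InterEq

open Groth.Agent.Dix.IdealModCartier Groth.Agent.Dix.InterNum Groth.Agent.Dix.VertGeom
open Groth.Agent.Dix.InterSurf

variable {R : Type u} [CommRing R] [IsDomain R] [IsDiscreteValuationRing R]

variable {X : Over (Spec (CommRingCat.of R))}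

/-- `(L · Γ) = dim_k H^0(Γ ∩ V(D), O)` when `L` is inverse to the ideal of the effective Cartier divisor `D`
and `Γ` is not contained in `V(D)`. -/
theorem inter_eq_hz [IsProper X.hom] (Γ : ArSurf.VertComp R X) {D : X.left.IdealSheafData}
    (hD : BlowUp.IsEffCartierIdeal D) (h : gp Γ ∉ D.support) {L : X.left.Modules}
    (hL : ClSub.IsInverseOf L (ClSub.idealMod D)) :
    ArSurf.inter R X L Γ = (hz Γ D : ℤ) := by
  have : IsProper (Γ.curve.left ↘ Spec (CommRingCat.of (IsLocalRing.ResidueField R))) :=
    PointInter.isProper_curve_hom Γ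
  have hD' := isEff_comap_of_generic Γ.ι hD h
  obtain ⟨e⟩ := pullback_idealMod Γ.ι hD hD'
  have hinv : ClSub.IsInverseOf ((Scheme.Modules.pullback Γ.ι).obj L)
      (ClSub.idealMod (D.comap Γ.ι)) := isInverseOf_congr (isInverseOf_pullback Γ.ι hL) e
  have h1 := deg_of_effCartier (IsLocalRing.ResidueField R) Γ.curve.left Γ.dim_eq _ hD' _ hinv
  rw [finrank_quotMod] at h1
  rw [ArSurf.inter, curveDeg_eq _ _ Γ.dim_eq, h1]
  rfl

end Groth.Agent.Models.H50.InterEq
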