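import Groth.Agent.Models.H50.P1Line
import Groth.Agent.Models.H50.InterEq

/-!
# The numerical invariants of an exceptional curve of the first kind
-/

set_option autoImplicit false
universe u

open CategoryTheory CategoryTheory.Limits AlgebraicGeometry Opposite TopologicalSpace

namespace Groth.Agent.Models.H50.ExcNum

open Groth.Agent.Dix.IdealModCartier Groth.Agent.Dix.InterNum Groth.Agent.Dix.InterSurf
open Groth.Agent.Dix.Cast0

variable (k k' : Type u) [Field k] [Field k'] (Y : Scheme.{u}) [Y.Over (Spec (CommRingCat.of k))]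

/-- Cohomology of a curve over `k` which is the projective line over `k'`. -/
theorem exists_const (e : CohB1.ProjSpace 1 k' ≅ Y) : ∃ w : ℕ,
    Module.finrank k (Coh.HH Y (Coh.structureModule Y) 1) = 0 ∧
    Module.finrank k (Coh.HH Y (Coh.structureModule Y) 0) = w ∧
    ∀ M : Y.Modules, Coh.IsQCoh M → ArSurf.curveDeg k Y M =
      w * ArSurf.curveDeg k' (CohB1.ProjSpace 1 k') ((Scheme.Modules.pullback e.hom).obj M) := by
  obtain ⟨σ, hσ⟩ := Groth.Agent.Dix.EtMinF.exists_factor 1 k' (e.hom ≫ (Y ↘ Spec (CommRingCat.of k)))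
  obtain ⟨φ, rfl⟩ := Spec.map_surjective σ
  let algKk : Algebra k k' := φ.hom.toAlgebra
  let i : (CohB1.ProjSpace 1 k').Over (Spec (CommRingCat.of k)) :=
    ⟨e.hom ≫ (Y ↘ Spec (CommRingCat.of k))⟩
  have hconst : ((CohB1.ProjSpace 1 k') ↘ Spec (CommRingCat.of k)) =
      ((CohB1.ProjSpace 1 k') ↘ Spec (CommRingCat.of k')) ≫
        Spec.map (CommRingCat.ofHom (algebraMap k k')) := hσ.symm
  have hover : e.hom ≫ (Y ↘ Spec (CommRingCat.of k)) =
      (CohB1.ProjSpace 1 k') ↘ Spec (CommRingCat.of k) := rfl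
  have hO : ∀ n, Module.finrank k (Coh.HH Y (Coh.structureModule Y) n) =
      Module.finrank k k' * Module.finrank k' (Coh.HH (CohB1.ProjSpace 1 k')
        (Coh.structureModule (CohB1.ProjSpace 1 k')) n) := by
    intro n
    rw [← finrank_HH_const k k' (CohB1.ProjSpace 1 k') hconst,
      ← finrank_HH_iso k e.hom hover _ (Groth.Agent.S2329.isCoh_of_isInvertible
      Fdesc.LocGen.isInvertible_structureModule).1 n]
    exact (CurvesA.HHMap.equivOver k (CurvesA.HHMap.pullbackUnit e.hom) n).finrank_eq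
  refine ⟨Module.finrank k k', ?_, ?_, ?_⟩
  · have := Groth.Agent.S0023.result 1 k' 1 one_pos
    rw [hO, Module.finrank_zero_of_subsingleton (R := k'), mul_zero]
  · rw [hO]
    have h1 : Module.finrank k' (Coh.HH (CohB1.ProjSpace 1 k')
        (Coh.structureModule (CohB1.ProjSpace 1 k')) 0) = 1 := by
      rw [P1Line.finrank_structure]
      have h2 := Groth.Agent.S0024.result 1 k'
      have h3 : Function.Bijective (glo ((CohB1.ProjSpace 1 k') ↘ Spec (CommRingCat.of k'))) := by
        have h4 : Function.Bijective (CohB1.ProjSpace.toSpec 1 k').appTop.hom :=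
          (ConcreteCategory.isIso_iff_bijective _).1 h2
        exact h4.comp ((ConcreteCategory.isIso_iff_bijective
          (Scheme.ΓSpecIso (CommRingCat.of k')).inv).1 inferInstance)
      unfold h0
      let m1 : Module k' Γ((CohB1.ProjSpace 1 k'), ⊤) := Module.compHom Γ((CohB1.ProjSpace 1 k'), ⊤)
        (glo ((CohB1.ProjSpace 1 k') ↘ Spec (CommRingCat.of k')))
      let E : k' ≃ₗ[k'] Γ((CohB1.ProjSpace 1 k'), ⊤) :=
        { Equiv.ofBijective _ h3 with
          map_add' := fun a b => map_add (glo _) a b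
          map_smul' := fun a b => map_mul (glo _) a b }
      rw [← E.finrank_eq, Module.finrank_self]
    rw [h1, mul_one]
  · intro M hM
    rw [← curveDeg_pullback_iso k e.hom hover M hM]
    exact curveDeg_const k k' (CohB1.ProjSpace 1 k') hconst _

variable {R : Type u} [CommRing R] [IsDomain R] [IsDiscreteValuationRing R]

variable {X : Over (Spec (CommRingCat.of R))}

/-- An exceptional curve of the first kind has `h^1 = 0` and self-intersection `-[κ : k]`. -/
theorem exc_numbers [IsProper X.hom] (Γ : ArSurf.VertComp R X) (h : Models.IsExcCurve Γ.ι)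
    {L : X.left.Modules} (hL : ClSub.IsInverseOf L (ClSub.idealMod Γ.ι.ker)) :
    Models.h1 R X Γ = 0 ∧ ArSurf.inter R X L Γ = -(Models.wdeg R X Γ : ℤ) := by
  have hp : IsProper (Γ.curve.left ↘ Spec (CommRingCat.of (IsLocalRing.ResidueField R))) :=
    PointInter.isProper_curve_hom Γ
  obtain ⟨hD, k', _, e, ⟨t⟩⟩ := h
  obtain ⟨w, h1, h0, hdeg⟩ := exists_const (IsLocalRing.ResidueField R) k' Γ.curve.left e
  refine ⟨h1, ?_⟩
  have hinv := isInverseOf_pullback Γ.ι hL
  obtain ⟨-, hI⟩ := isInvertible_of_isInverseOf hinv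
  have h2 := deg_inverse (IsLocalRing.ResidueField R) Γ.curve.left Γ.dim_eq hinv
  rw [← curveDeg_eq _ _ Γ.dim_eq, ← curveDeg_eq _ _ Γ.dim_eq] at h2
  have h3 := hdeg _ (Groth.Agent.S2329.isCoh_of_isInvertible hI).1
  have h4 : ArSurf.curveDeg k' (CohB1.ProjSpace 1 k') ((Scheme.Modules.pullback e.hom).obj
      ((Scheme.Modules.pullback Γ.ι).obj (ClSub.idealMod Γ.ι.ker))) = 1 :=
    (curveDeg_congr (X := CohB1.ProjSpace 1 k') k'
      ((Scheme.Modules.pullbackComp e.hom Γ.ι).app (ClSub.idealMod Γ.ι.ker) ≪≫ t)).trans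
      (Groth.Agent.Dix.Cast2.wp2_deg k' 1)
  rw [h4, mul_one] at h3
  rw [ArSurf.inter, h2, h3]
  exact congrArg _ (congrArg _ h0.symm)

end Groth.Agent.Models.H50.ExcNum
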