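import Groth.Agent.Models.H50.InterEq
import Mathlib.AlgebraicGeometry.Morphisms.Finite

/-!
# Vanishing of the intersection number of distinct vertical components
-/

set_option autoImplicit false
universe u

open CategoryTheory CategoryTheory.Limits AlgebraicGeometry Opposite TopologicalSpace

namespace Groth.Agent.Models.H50.InterNonneg

open Groth.Agent.Dix.IdealModCartier Groth.Agent.Dix.InterNum Groth.Agent.Dix.VertGeom
open Groth.Agent.Dix.InterSurf

/-- A finite scheme over a field without functions is empty. -/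
theorem isEmpty_of_h0_zero {k : Type u} [Field k] {Z : Scheme.{u}} (f : Z ⟶ Spec (CommRingCat.of k))
    [IsFinite f] (h : h0 f = 0) : IsEmpty Z := by
  have hZ : IsAffine Z := isAffine_of_isAffineHom f
  have h2 : f.appTop.hom.Finite := ((HasAffineProperty.iff_of_isAffine (P := @IsFinite)).1 ‹_›).2
  have h3 : (glo f).Finite :=
    h2.comp (RingHom.Finite.of_surjective _
      ((ConcreteCategory.isIso_iff_bijective (Scheme.ΓSpecIso (CommRingCat.of k)).inv).1
        inferInstance).2)
  let m1 : Module k Γ(Z, ⊤) := Module.compHom Γ(Z, ⊤) (glo f)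
  have h4 : Module.Finite k Γ(Z, ⊤) := h3
  have h5 : Module.finrank k Γ(Z, ⊤) = 0 := h
  have h6 : Subsingleton Γ(Z, ⊤) := Module.finrank_zero_iff.1 h5
  by_contra hne
  rw [not_isEmpty_iff] at hne
  obtain ⟨z⟩ := hne
  have h7 : (Z.presheaf.germ ⊤ z trivial).hom 1 = (Z.presheaf.germ ⊤ z trivial).hom 0 :=
    congrArg _ (Subsingleton.elim _ _)
  rw [map_one, map_zero] at h7
  exact one_ne_zero h7

theorem h0_eq_zero_of_isEmpty {k : Type u} [Field k] {Z : Scheme.{u}} (f : Z ⟶ Spec (CommRingCat.of k))
    [IsEmpty Z] : h0 f = 0 := by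
  let m1 : Module k Γ(Z, ⊤) := Module.compHom Γ(Z, ⊤) (glo f)
  have h6 : Subsingleton Γ(Z, ⊤) := by
    have : (⊤ : Z.Opens) = ⊥ := by
      ext x
      exact isEmptyElim x
    rw [this]
    exact CommRingCat.subsingleton_of_isTerminal (Z.sheaf.isTerminalOfEmpty)
  exact Module.finrank_zero_of_subsingleton

variable {R : Type u} [CommRing R] [IsDomain R] [IsDiscreteValuationRing R]

variable {X : Over (Spec (CommRingCat.of R))}

/-- The intersection is empty exactly when its length vanishes. -/
theorem hz_eq_zero_iff [IsProper X.hom] (Γ : ArSurf.VertComp R X) (D : X.left.IdealSheafData)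
    (h : gp Γ ∉ D.support) :
    hz Γ D = 0 ↔ Disjoint (Set.range (Γ.ι.base : Γ.curve.left → X.left)) (D.support : Set X.left) := by
  have hfin := PointInter.isFinite_inter Γ D h
  constructor
  · intro h0
    have he := isEmpty_of_h0_zero _ h0
    rw [Set.disjoint_left]
    rintro _ ⟨y, rfl⟩ hy
    have h1 : y ∈ ((D.comap Γ.ι).support : Set Γ.curve.left) := by
      rw [Scheme.IdealSheafData.support_comap]
      exact hy
    rw [← Scheme.IdealSheafData.range_subschemeι] at h1
    obtain ⟨z, -⟩ := h1
    exact he.elim z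
  · intro hd
    have he : IsEmpty (D.comap Γ.ι).subscheme := by
      by_contra hne
      rw [not_isEmpty_iff] at hne
      obtain ⟨z⟩ := hne
      have h1 : (D.comap Γ.ι).subschemeι z ∈ ((D.comap Γ.ι).support : Set Γ.curve.left) := by
        rw [← Scheme.IdealSheafData.range_subschemeι]
        exact ⟨z, rfl⟩
      rw [Scheme.IdealSheafData.support_comap] at h1
      exact Set.disjoint_left.1 hd ⟨_, rfl⟩ h1
    exact h0_eq_zero_of_isEmpty _

/-- Distinct components: the intersection number is non-negative, and vanishes iff they are disjoint. -/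
theorem inter_nonneg_and_eq_zero_iff [IsProper X.hom] (Γ Γ' : ArSurf.VertComp R X)
    (hD : BlowUp.IsEffCartierIdeal Γ'.ι.ker) (h : gp Γ ∉ Γ'.ι.ker.support) {L : X.left.Modules}
    (hL : ClSub.IsInverseOf L (ClSub.idealMod Γ'.ι.ker)) :
    0 ≤ ArSurf.inter R X L Γ ∧ (ArSurf.inter R X L Γ = 0 ↔
      Disjoint (Set.range (Γ.ι.base : Γ.curve.left → X.left))
        (Set.range (Γ'.ι.base : Γ'.curve.left → X.left))) := by
  rw [InterEq.inter_eq_hz Γ hD h hL]
  refine ⟨by positivity, ?_⟩
  have h1 : (Γ'.ι.ker.support : Set X.left) = Set.range (Γ'.ι.base : Γ'.curve.left → X.left) := by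
    ext x
    exact mem_support_ker_iff Γ'.ι x
  rw [Int.natCast_eq_zero, hz_eq_zero_iff Γ _ h, h1]

end Groth.Agent.Models.H50.InterNonneg
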