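import Groth.Agent.Dix.InterNum
import Groth.Agent.Dix.EtMinG
import Groth.Agent.Dix.Cast2
import Groth.Prelude.Def_ModelsG

/-!
# A curve with one-dimensional space of functions which is a projective line over some field is the projective
line over the base field
-/

set_option autoImplicit false
universe u

open CategoryTheory CategoryTheory.Limits AlgebraicGeometry Opposite TopologicalSpace

namespace Groth.Agent.Models.H50.P1Line

open Groth.Agent.Dix.InterNum

variable (k : Type u) [Field k] (Y : Scheme.{u}) [Y.Over (Spec (CommRingCat.of k))]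

lemma finrank_structure :
    Module.finrank k (Coh.HH Y (Coh.structureModule Y) 0) = h0 (Y ↘ (Spec (CommRingCat.of k))) := by
  let m1 : Module k Γ(Y, ⊤) :=
    Module.compHom Γ(Y, ⊤) (glo (Y ↘ (Spec (CommRingCat.of k))))
  let E : Coh.HH Y (Coh.structureModule Y) 0 ≃+ Γ(Y, ⊤) :=
    CurvesB.HZero.equivAdd (Coh.structureModule Y)
  have hE : ∀ (t : k) (x : Coh.HH Y (Coh.structureModule Y) 0), E (t • x) =
      glo (Y ↘ (Spec (CommRingCat.of k))) t * E x := by
    intro t x
    exact CurvesB.HZero.equivAdd_smul_over (Coh.structureModule Y) t x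
  let e : Coh.HH Y (Coh.structureModule Y) 0 ≃ₗ[k] Γ(Y, ⊤) :=
    { E with
      map_smul' := hE }
  exact e.finrank_eq

theorem bijective_glo {Z : Scheme.{u}} (f : Z ⟶ Spec (CommRingCat.of k)) (h : h0 f = 1) :
    Function.Bijective (glo f) := by
  let m1 : Module k Γ(Z, ⊤) := Module.compHom Γ(Z, ⊤) (glo f)
  have h1 : Module.finrank k Γ(Z, ⊤) = 1 := h
  have hnt : Nontrivial Γ(Z, ⊤) := by
    by_contra hn
    rw [not_nontrivial_iff_subsingleton] at hn
    rw [Module.finrank_zero_of_subsingleton] at h1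
    exact absurd h1 (by decide)
  refine ⟨(glo f).injective, fun y => ?_⟩
  obtain ⟨c, hc⟩ := (finrank_eq_one_iff_of_nonzero' (1 : Γ(Z, ⊤)) one_ne_zero).1 h1 y
  refine ⟨c, ?_⟩
  rw [← hc]
  change _ = glo f c * 1
  rw [mul_one]

theorem isIso_appTop_of_h0 {Z : Scheme.{u}} (f : Z ⟶ Spec (CommRingCat.of k)) (h : h0 f = 1) :
    IsIso f.appTop := by
  have hbij := bijective_glo k f h
  have h3 : (glo f : k → Γ(Z, ⊤)) = f.appTop.hom ∘ (Scheme.ΓSpecIso (CommRingCat.of k)).inv.hom := rfl
  rw [h3] at hbij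
  have h4 : Function.Bijective (Scheme.ΓSpecIso (CommRingCat.of k)).inv.hom :=
    (ConcreteCategory.isIso_iff_bijective (Scheme.ΓSpecIso (CommRingCat.of k)).inv).1 inferInstance
  exact (ConcreteCategory.isIso_iff_bijective _).2 ((Function.Bijective.of_comp_iff _ h4).1 hbij)

/-- A proper curve over `k` with `H^0 = k` which is isomorphic (as a scheme) to a projective line over some
field is isomorphic to the projective line over `k`. -/
theorem exists_iso [IsIntegral Y] [IsProper (Y ↘ (Spec (CommRingCat.of k)))]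
    (h : Module.finrank k (Coh.HH Y (Coh.structureModule Y) 0) = 1)
    (k' : Type u) [Field k'] (e : CohB1.ProjSpace 1 k' ≅ Y) :
    ∃ e' : Y ≅ CohB1.ProjSpace 1 k, e'.hom ≫ CohB1.ProjSpace.toSpec 1 k =
      Y ↘ (Spec (CommRingCat.of k)) := by
  have hiso : IsIso (Y ↘ (Spec (CommRingCat.of k))).appTop :=
    isIso_appTop_of_h0 k _ ((finrank_structure k Y).symm.trans h)
  let N : Y.Modules := (Scheme.Modules.pullback e.inv).obj (Twist.twistProjSpace 1 k' 1)
  have hT : PicF.IsInvertible (Twist.twistProjSpace 1 k' 1) :=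
    Groth.Agent.Ega2.VeryAmpleAmple.isInvertible_twistProjSpace 1 k' 1
  have hN : PicF.IsInvertible N := Fdesc.LocGen.isInvertible_pullback e.inv hT
  let i : (Scheme.Modules.pullback e.hom).obj N ≅ Twist.twistProjSpace 1 k' 1 :=
    (Scheme.Modules.pullbackComp e.hom e.inv).app _ ≪≫
      (Scheme.Modules.pullbackCongr e.hom_inv_id).app _ ≪≫ (Scheme.Modules.pullbackId _).app _
  have hdeg : ArSurf.curveDeg k' (CohB1.ProjSpace 1 k') ((Scheme.Modules.pullback e.hom).obj N) = 1 := by
    rw [← Groth.Agent.Dix.Cast2.wp2_deg k' 1]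
    unfold ArSurf.curveDeg
    rw [Groth.Agent.Fga.EulerIso.eulerCharLE_congr (X := CohB1.ProjSpace 1 k') k' i 1]
  obtain ⟨e', he', -⟩ := Groth.Agent.Dix.EtMinG.main k k' Y e.hom N hN hdeg
  refine ⟨e'.symm, ?_⟩
  rw [← he']
  simp

end Groth.Agent.Models.H50.P1Line
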