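import Groth.Agent.Dix.InterSurf
import Groth.Agent.CurvesC.Dim1Top
import Groth.Prelude.Def_ModelsG
import Mathlib.AlgebraicGeometry.ZariskisMainTheorem

/-!
# Two vertical components whose intersection has length one meet in one reduced rational point
-/

set_option autoImplicit false
universe u

open CategoryTheory CategoryTheory.Limits AlgebraicGeometry Opposite TopologicalSpace

namespace Groth.Agent.Models.H50.PointInter

open Groth.Agent.Dix.IdealModCartier Groth.Agent.Dix.InterNum Groth.Agent.Dix.VertGeom
open Groth.Agent.Dix.InterSurf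

section Gen

/-- A finite scheme over a field with one-dimensional ring of functions is the spectrum of the field. -/
theorem isIso_of_h0_one {k : Type u} [Field k] {Z : Scheme.{u}} (f : Z ⟶ Spec (CommRingCat.of k))
    [IsFinite f] (h : h0 f = 1) : IsIso f := by
  have hZ : IsAffine Z := isAffine_of_isAffineHom f
  have hbij : Function.Bijective (glo f) := by
    let m1 : Module k Γ(Z, ⊤) := Module.compHom Γ(Z, ⊤) (glo f)
    have h1 : Module.finrank k Γ(Z, ⊤) = 1 := h
    have hnt : Nontrivial Γ(Z, ⊤) := by
      by_contra hn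
      rw [not_nontrivial_iff_subsingleton] at hn
      rw [Module.finrank_zero_of_subsingleton] at h1
      exact absurd h1 (by decide)
    refine ⟨(glo f).injective, fun y => ?_⟩
    obtain ⟨c, hc⟩ := (finrank_eq_one_iff_of_nonzero' (1 : Γ(Z, ⊤)) one_ne_zero).1 h1 y
    refine ⟨c, ?_⟩
    rw [← hc]
    change _ = glo f c * 1
    rw [mul_one]
  have h2 : Function.Bijective f.appTop.hom := by
    have h3 : (glo f : k → Γ(Z, ⊤)) = f.appTop.hom ∘ (Scheme.ΓSpecIso (CommRingCat.of k)).inv.hom := rfl
    rw [h3] at hbij
    have h4 : Function.Bijective (Scheme.ΓSpecIso (CommRingCat.of k)).inv.hom :=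
      (ConcreteCategory.isIso_iff_bijective (Scheme.ΓSpecIso (CommRingCat.of k)).inv).1 inferInstance
    exact (Function.Bijective.of_comp_iff _ h4).1 hbij
  have h5 : IsIso f.appTop := (ConcreteCategory.isIso_iff_bijective _).2 h2
  have h6 := Scheme.toSpecΓ_naturality f
  have h7 : IsIso (f ≫ (Spec (CommRingCat.of k)).toSpecΓ) := by
    rw [h6]
    infer_instance
  exact IsIso.of_isIso_comp_right f (Spec (CommRingCat.of k)).toSpecΓ

/-- The kernel of a morphism from a reduced scheme is the vanishing ideal of the closure of its image. -/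
theorem ker_eq_vanishingIdeal {Z X : Scheme.{u}} (g : Z ⟶ X) [IsReduced Z] :
    g.ker = Scheme.IdealSheafData.vanishingIdeal (.closure (Set.range g)) := by
  rw [← Scheme.IdealSheafData.map_bot, ← Scheme.nilradical_eq_bot,
    ← Scheme.IdealSheafData.vanishingIdeal_top, Scheme.IdealSheafData.map_vanishingIdeal]
  congr 2
  exact Set.image_univ

end Gen

section Res

variable {R : Type u} [CommRing R] [IsDomain R] [IsDiscreteValuationRing R]

variable (X : Over (Spec (CommRingCat.of R)))

omit [IsDomain R] [IsDiscreteValuationRing R] in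
/-- `Spec O_{X,x} → X → Spec R` comes from the ring map `stalkHom`. -/
theorem fromSpecStalk_hom (x : X.left) :
    X.left.fromSpecStalk x ≫ X.hom = Spec.map (CommRingCat.ofHom (_root_.Models.stalkHom R X x)) := by
  apply ext_of_isAffine
  have h : (X.left.fromSpecStalk x).appTop ≫ (Scheme.ΓSpecIso _).hom =
      X.left.presheaf.germ ⊤ x trivial := by
    rw [Scheme.fromSpecStalk_appTop]
    simp
  rw [Scheme.Hom.comp_appTop, ← cancel_mono (Scheme.ΓSpecIso _).hom,
    Scheme.ΓSpecIso_naturality, Category.assoc, h,
    ← cancel_epi (Scheme.ΓSpecIso (CommRingCat.of R)).inv, Iso.inv_hom_id_assoc]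
  rfl

/-- A `k`-point of the closed fibre: the residue field is a quotient of `R`. -/
theorem surjective_residue_of_section (s : Spec (CommRingCat.of (IsLocalRing.ResidueField R)) ⟶ X.left)
    (hs : s ≫ X.hom = Spec.map (CommRingCat.ofHom (IsLocalRing.residue R)))
    (x : X.left) (hx : s (IsLocalRing.closedPoint _) = x) :
    Function.Surjective ((X.left.residue x).hom.comp (_root_.Models.stalkHom R X x)) := by
  subst hx
  set x := s (IsLocalRing.closedPoint (IsLocalRing.ResidueField R)) with hx
  let φ : X.left.residueField x ⟶ CommRingCat.of (IsLocalRing.ResidueField R) :=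
    Scheme.descResidueField (Scheme.stalkClosedPointTo s)
  have h1 : Spec.map φ ≫ X.left.fromSpecResidueField x = s :=
    Scheme.descResidueField_stalkClosedPointTo_fromSpecResidueField _ _ s
  have h2 : Spec.map (CommRingCat.ofHom (IsLocalRing.residue R)) =
      Spec.map ((CommRingCat.ofHom (_root_.Models.stalkHom R X x) ≫ X.left.residue x) ≫ φ) := by
    rw [Spec.map_comp, Spec.map_comp, ← fromSpecStalk_hom, ← hs]
    conv_lhs => rw [← h1]
    rw [Scheme.fromSpecResidueField, Category.assoc, Category.assoc]
  have h3 := Spec.map_injective h2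
  intro y
  obtain ⟨r, hr⟩ := IsLocalRing.residue_surjective (φ.hom y)
  refine ⟨r, ?_⟩
  apply (φ.hom : X.left.residueField x →+* IsLocalRing.ResidueField R).injective
  have h4 := congrArg (fun f => f.hom r) h3
  exact h4.symm.trans hr

end Res

section Main

variable {R : Type u} [CommRing R] [IsDomain R] [IsDiscreteValuationRing R]

variable {X : Over (Spec (CommRingCat.of R))}

lemma isProper_curve_hom [IsProper X.hom] (Γ : ArSurf.VertComp R X) : IsProper Γ.curve.hom := by
  have h1 : IsProper (Γ.curve.hom ≫ Spec.map (CommRingCat.ofHom (IsLocalRing.residue R))) := by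
    rw [← Γ.w]
    infer_instance
  exact IsProper.of_comp Γ.curve.hom (Spec.map (CommRingCat.ofHom (IsLocalRing.residue R)))

/-- The intersection of a vertical component with a closed subscheme not containing it is finite
over the residue field. -/
theorem isFinite_inter [IsProper X.hom] (Γ : ArSurf.VertComp R X) (D : X.left.IdealSheafData)
    (h : gp Γ ∉ D.support) : IsFinite ((D.comap Γ.ι).subschemeι ≫ Γ.curve.hom) := by
  have hp := isProper_curve_hom Γ
  have hN : IsLocallyNoetherian Γ.curve.left := LocallyOfFiniteType.isLocallyNoetherian Γ.curve.hom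
  have hc : CompactSpace Γ.curve.left := QuasiCompact.compactSpace_of_compactSpace Γ.curve.hom
  have hN' : IsNoetherian Γ.curve.left := { }
  have hfin : (Set.univ : Set ((D.comap Γ.ι).subscheme)).Finite := by
    have h1 : ((D.comap Γ.ι).support : Set Γ.curve.left) ≠ Set.univ := by
      intro h2
      apply h
      have h3 : genericPoint Γ.curve.left ∈ ((D.comap Γ.ι).support : Set Γ.curve.left) := by
        rw [h2]; trivial
      rw [Scheme.IdealSheafData.support_comap] at h3
      exact h3
    have h2 : ((D.comap Γ.ι).support : Set Γ.curve.left).Finite :=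
      CurvesC.Dim1Top.finite_of_isClosed Γ.dim_eq.le (D.comap Γ.ι).support.isClosed h1
    rw [← Scheme.IdealSheafData.range_subschemeι, ← Set.image_univ] at h2
    exact h2.of_finite_image ((D.comap Γ.ι).subschemeι.isClosedEmbedding.injective.injOn)
  have hlq : LocallyQuasiFinite ((D.comap Γ.ι).subschemeι ≫ Γ.curve.hom) :=
    LocallyQuasiFinite.of_finite_preimage_singleton _ fun y => hfin.subset (Set.subset_univ _)
  exact IsFinite.of_isProper_of_locallyQuasiFinite _

/-- Two vertical components whose intersection has length one over the residue field meet in one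
reduced rational point. -/
theorem inter_point [IsProper X.hom] (Γ Γ' : ArSurf.VertComp R X) (h : gp Γ ∉ Γ'.ι.ker.support)
    (h1 : hz Γ Γ'.ι.ker = 1) :
    ∃ x : X.left, Set.range Γ.ι ∩ Set.range Γ'.ι = {x} ∧
      Γ.ι.ker ⊔ Γ'.ι.ker = Scheme.IdealSheafData.vanishingIdeal ⟨closure {x}, isClosed_closure⟩ ∧
      Function.Surjective ((X.left.residue x).hom.comp (_root_.Models.stalkHom R X x)) := by
  let D := Γ'.ι.ker.comap Γ.ι
  let q : D.subscheme ⟶ Spec (CommRingCat.of (IsLocalRing.ResidueField R)) :=
    D.subschemeι ≫ Γ.curve.hom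
  have hq : IsFinite q := isFinite_inter Γ _ h
  have hiso : IsIso q := isIso_of_h0_one q h1
  let s : Spec (CommRingCat.of (IsLocalRing.ResidueField R)) ⟶ X.left := inv q ≫ D.subschemeι ≫ Γ.ι
  have hs : s ≫ X.hom = Spec.map (CommRingCat.ofHom (IsLocalRing.residue R)) := by
    simp only [s, Category.assoc, Γ.w]
    rw [← Category.assoc D.subschemeι]
    exact IsIso.inv_hom_id_assoc q _
  have hker : s.ker = Γ.ι.ker ⊔ Γ'.ι.ker := by
    have h2 : s.ker = (D.subschemeι ≫ Γ.ι).ker := by
      apply le_antisymm
      · have : q ≫ s = D.subschemeι ≫ Γ.ι := by simp [s]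
        rw [← this]
        exact Scheme.Hom.le_ker_comp _ _
      · exact Scheme.Hom.le_ker_comp _ _
    rw [h2]
    exact map_comap_of_closed Γ.ι _
  have hrange : Set.range s = Set.range Γ.ι ∩ Set.range Γ'.ι := by
    have h2 : Set.range s = Set.range (D.subschemeι ≫ Γ.ι) := by
      apply le_antisymm
      · rintro _ ⟨z, rfl⟩
        exact ⟨inv q z, by simp [s]⟩
      · have h3 : q ≫ s = D.subschemeι ≫ Γ.ι := by simp [s]
        rw [← h3]
        rintro _ ⟨z, rfl⟩
        exact ⟨q z, by simp⟩
    have h4 : Set.range (D.subschemeι ≫ Γ.ι) = Γ.ι '' (Γ.ι ⁻¹' (Set.range Γ'.ι)) := by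
      have h5 : Set.range (D.subschemeι ≫ Γ.ι) = Γ.ι '' (Set.range D.subschemeι) := by
        rw [← Set.range_comp]
        congr 1
      rw [h5, Scheme.IdealSheafData.range_subschemeι, Scheme.IdealSheafData.support_comap]
      congr 1
      ext z
      exact mem_support_ker_iff Γ'.ι (Γ.ι z)
    rw [h2, h4, Set.image_preimage_eq_inter_range, Set.inter_comm]
  have hrange' : Set.range s = {s (IsLocalRing.closedPoint _)} := by
    ext y
    constructor
    · rintro ⟨z, rfl⟩
      rw [Subsingleton.elim z (IsLocalRing.closedPoint _)]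
      rfl
    · rintro rfl
      exact ⟨_, rfl⟩
  refine ⟨s (IsLocalRing.closedPoint _), by rw [← hrange, hrange'], ?_,
    surjective_residue_of_section X s hs _ rfl⟩
  rw [← hker, ker_eq_vanishingIdeal]
  congr 1
  ext1
  change closure (Set.range s) = _
  rw [hrange']
  rfl

end Main

end Groth.Agent.Models.H50.PointInter
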