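import Groth.Agent.Models.NumBasic

set_option autoImplicit false

open Finset

/-! Two `(-1)`-indices which meet: the numerical type has two indices, multiplicities and weights `1`,
and genus `0`. -/

namespace Groth.Agent.Models.H50.TwoMinusOne

open Groth.Agent.Models.NumBasic

variable {n : ℕ} (T : _root_.Models.NumericalType n)

lemma w_le_a {i j : Fin n} (hij : i ≠ j) (h : T.a i j ≠ 0) : T.w i ≤ T.a i j :=
  Int.le_of_dvd (lt_of_le_of_ne (T.offDiag_nonneg i j hij) (Ne.symm h)) (T.w_dvd i j)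

lemma sum_split {i j : Fin n} (hij : i ≠ j) (g : Fin n → ℤ) :
    ∑ l, g l = g i + g j + ∑ l ∈ (univ.erase i).erase j, g l := by
  rw [← Finset.add_sum_erase univ _ (Finset.mem_univ i),
    ← Finset.add_sum_erase (univ.erase i) _ (Finset.mem_erase.2 ⟨hij.symm, Finset.mem_univ j⟩)]
  ring

lemma rest_nonneg {i j : Fin n} : 0 ≤ ∑ l ∈ (univ.erase i).erase j, T.a i l * T.m l := by
  refine Finset.sum_nonneg fun l hl => ?_
  have hli : l ≠ i := (Finset.mem_erase.1 (Finset.mem_erase.1 hl).2).1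
  exact mul_nonneg (T.offDiag_nonneg i l hli.symm) (T.m_pos l).le

lemma m_le {i j : Fin n} (hij : i ≠ j) (hi : T.a i i = - T.w i) (h : T.a i j ≠ 0) :
    T.m j ≤ T.m i := by
  have h1 := row_sum T i
  rw [sum_split hij, hi] at h1
  have h2 := rest_nonneg T (i := i) (j := j)
  have h3 := w_le_a T hij h
  have h4 := T.w_pos i
  have h5 := T.m_pos j
  by_contra hlt
  push Not at hlt
  nlinarith

lemma rest_eq {i j : Fin n} (hij : i ≠ j) (hi : T.a i i = - T.w i) (h : T.a i j ≠ 0)
    (hm : T.m i = T.m j) : T.a i j = T.w i ∧ ∀ l, l ≠ i → l ≠ j → T.a i l = 0 := by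
  have h1 := row_sum T i
  rw [sum_split hij, hi, hm] at h1
  have h2 := rest_nonneg T (i := i) (j := j)
  have h3 := w_le_a T hij h
  have h4 := T.w_pos i
  have h5 := T.m_pos j
  have h6 : T.a i j = T.w i := by
    by_contra hne
    have h7 : T.w i < T.a i j := lt_of_le_of_ne h3 (Ne.symm hne)
    nlinarith
  refine ⟨h6, fun l hli hlj => ?_⟩
  have h8 : ∑ l ∈ (univ.erase i).erase j, T.a i l * T.m l = 0 := by
    rw [h6] at h1
    linarith
  have h9 := (Finset.sum_eq_zero_iff_of_nonneg (fun l hl => ?_)).1 h8 l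
    (Finset.mem_erase.2 ⟨hlj, Finset.mem_erase.2 ⟨hli, Finset.mem_univ l⟩⟩)
  · rcases mul_eq_zero.1 h9 with h | h
    · exact h
    · exact absurd h (T.m_pos l).ne'
  · have hli : l ≠ i := (Finset.mem_erase.1 (Finset.mem_erase.1 hl).2).1
    exact mul_nonneg (T.offDiag_nonneg i l hli.symm) (T.m_pos l).le

/-- Two `(-1)`-indices which meet. -/
theorem two_minus_one {i j : Fin n} (hij : i ≠ j) (hi : T.IsMinusOne i) (hj : T.IsMinusOne j)
    (h : T.a i j ≠ 0) (hg : 0 ≤ T.genus) :
    n = 2 ∧ (∀ l, l = i ∨ l = j) ∧ (∀ l, T.m l = 1) ∧ (∀ l, T.w l = 1) ∧ T.a i j = 1 ∧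
      T.genus = 0 := by
  have h' : T.a j i ≠ 0 := by rwa [a_symm T j i]
  have hm : T.m i = T.m j :=
    le_antisymm (m_le T hij.symm hj.2 h') (m_le T hij hi.2 h)
  obtain ⟨h1, h2⟩ := rest_eq T hij hi.2 h hm
  obtain ⟨h3, h4⟩ := rest_eq T hij.symm hj.2 h' hm.symm
  have hw : T.w i = T.w j := by rw [← h1, ← h3, a_symm T i j]
  have huniv : ({i, j} : Finset (Fin n)) = univ := by
    by_contra hne
    obtain ⟨s, hs, t, ht, hst⟩ := T.connected {i, j} ⟨i, by simp⟩ hne
    simp only [Finset.mem_insert, Finset.mem_singleton, not_or] at hs ht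
    rcases hs with rfl | rfl
    · exact hst (h2 t ht.1 ht.2)
    · exact hst (h4 t ht.2 ht.1)
  have hall : ∀ l, l = i ∨ l = j := fun l => by
    have := Finset.mem_univ l
    rw [← huniv] at this
    simpa using this
  have hn : n = 2 := by
    have := congrArg Finset.card huniv
    rw [Finset.card_pair hij, Finset.card_univ, Fintype.card_fin] at this
    exact this.symm
  have hgen := two_mul_genus_sub_one T
  rw [← huniv, Finset.sum_pair hij, hi.1, hj.1, hi.2, hj.2, ← hm, ← hw] at hgen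
  have hmw : T.genus = 1 - T.m i * T.w i := by linarith
  have hmp := T.m_pos i
  have hwp := T.w_pos i
  have hm1 : T.m i = 1 := by nlinarith
  have hw1 : T.w i = 1 := by
    rw [hm1] at hmw
    linarith
  refine ⟨hn, hall, fun l => ?_, fun l => ?_, by rw [h1, hw1], by rw [hmw, hm1, hw1]; norm_num⟩
  · rcases hall l with rfl | rfl
    · exact hm1
    · rw [← hm, hm1]
  · rcases hall l with rfl | rfl
    · exact hw1
    · rw [← hw, hw1]

end Groth.Agent.Models.H50.TwoMinusOne
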